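import Mathlib
import Cfsg.Agent.Lib.CosetEnum.Pres

/-!
# The group `3² : GL₂(3)` acting on nine involutions

`H` has a self-centralising normal subgroup `V ≅ 3²` and order `432`.  With a basis `z, x` of `V` and
an element `a` inverting `V`, the elements of `H` are the affine maps of the coset `a V`.
-/

set_option autoImplicit false

namespace H20.AF

open H18.TC Subgroup

/-- coordinates -/
abbrev P := ZMod 3 × ZMod 3

/-- the linear map with columns `m.1`, `m.2` -/
def lin (m : P × P) (q : P) : P := (q.1 * m.1.1 + q.2 * m.2.1, q.1 * m.1.2 + q.2 * m.2.2)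

/-- an affine map -/
def aff (m : P × P) (t q : P) : P := (t.1 + (lin m q).1, t.2 + (lin m q).2)

/-- the determinant -/
def det (m : P × P) : ZMod 3 := m.1.1 * m.2.2 - m.1.2 * m.2.1

/-- the action of a word -/
def evp (p : ℕ → P → P) (w : List ℕ) (q : P) : P := w.foldl (fun q x => p x q) q

variable {G : Type*} [Group G]

/-- the element of `V` with given coordinates -/
def io (z x : G) (q : P) : G := z ^ q.1.val * x ^ q.2.val

theorem force_eq_loc : True := by
  have := @lin.eq_1; have := @aff.eq_1; have := @det.eq_1; have := @evp.eq_1; have := @io.eq_1.{0}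
  trivial

/-- `V ≅ 3²` is normal and self-centralising in `H` of order `432` -/
structure Side (H V : Subgroup G) : Prop where
  le : V ≤ H
  norm : ∀ g ∈ H, ∀ v ∈ V, g * v * g⁻¹ ∈ V
  comm : ∀ v ∈ V, ∀ w ∈ V, v * w = w * v
  cube : ∀ v ∈ V, v ^ 3 = 1
  cV : Nat.card V = 9
  cH : Nat.card H = 432
  cen : ∀ g ∈ H, (∀ v ∈ V, g * v = v * g) → g ∈ V

/-- a basis of `V` -/
structure Bas (V : Subgroup G) (z x : G) : Prop where
  zm : z ∈ V
  xm : x ∈ V
  z1 : z ≠ 1
  xz : x ∉ zpowers z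

variable {H V : Subgroup G} {z x a : G}

theorem io_zero (z x : G) : io z x 0 = 1 := by simp [io]
theorem io_z (z x : G) : io z x (1, 0) = z := by
  show z ^ 1 * x ^ 0 = z; simp
theorem io_x (z x : G) : io z x (0, 1) = x := by
  show z ^ 0 * x ^ 1 = x; simp

theorem Bas.mem (B : Bas V z x) (q : P) : io z x q ∈ V :=
  V.mul_mem (V.pow_mem B.zm _) (V.pow_mem B.xm _)

theorem Side.io_add (S : Side H V) (B : Bas V z x) (p q : P) :
    io z x (p + q) = io z x p * io z x q := by
  have c : Commute z x := S.comm z B.zm x B.xm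
  simp only [io, Prod.fst_add, Prod.snd_add, ZMod.val_add]
  rw [← pow_eq_pow_mod _ (S.cube z B.zm), ← pow_eq_pow_mod _ (S.cube x B.xm), pow_add, pow_add,
    mul_assoc, mul_assoc, ← mul_assoc (z ^ q.1.val), (c.pow_pow _ _).eq, mul_assoc]

theorem Side.io_neg (S : Side H V) (B : Bas V z x) (p : P) : io z x (-p) = (io z x p)⁻¹ := by
  rw [eq_inv_iff_mul_eq_one, ← S.io_add B, neg_add_cancel, io_zero]

theorem Side.io_pow (S : Side H V) (B : Bas V z x) (p : P) (n : ℕ) :
    io z x p ^ n = io z x (n • p) := by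
  induction n with
  | zero => simp [io_zero]
  | succ n ih => rw [pow_succ, ih, succ_nsmul, S.io_add B]

theorem tri (j : ZMod 3) : j = 0 ∨ j.val = 1 ∨ j.val = 2 := by revert j; decide

theorem Side.io_eq_one (S : Side H V) (B : Bas V z x) {q : P} (h : io z x q = 1) : q = 0 := by
  obtain ⟨i, j⟩ := q
  have h3 := S.cube x B.xm
  have hz := S.cube z B.zm
  have k : x ^ j.val ∈ zpowers z := by
    have : x ^ j.val = (z ^ i.val)⁻¹ := eq_inv_of_mul_eq_one_right h
    rw [this]; exact inv_mem (pow_mem (mem_zpowers z) _)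
  have hj : j = 0 := by
    rcases tri j with e | e | e
    · exact e
    · rw [e, pow_one] at k; exact absurd k B.xz
    · rw [e] at k
      refine absurd ?_ B.xz
      have : x = (x ^ 2) ^ 2 := by
        rw [← pow_mul, show 2 * 2 = 3 + 1 from rfl, pow_succ, h3, one_mul]
      rw [this]; exact pow_mem k _
  subst hj
  have h' : z ^ i.val = 1 := by simpa [io] using h
  rcases tri i with e | e | e
  · rw [e]; rfl
  · rw [e, pow_one] at h'; exact absurd h' B.z1
  · rw [e] at h'
    refine absurd ?_ B.z1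
    rw [pow_succ, h', one_mul] at hz; exact hz

theorem Side.io_inj (S : Side H V) (B : Bas V z x) {p q : P} (h : io z x p = io z x q) : p = q := by
  rw [← sub_eq_zero]
  apply S.io_eq_one B
  rw [sub_eq_add_neg, S.io_add B, S.io_neg B, h, mul_inv_cancel]

theorem Side.exists_io (S : Side H V) (B : Bas V z x) {v : G} (hv : v ∈ V) : ∃ q, v = io z x q := by
  have : Finite V := Nat.finite_of_card_ne_zero (by rw [S.cV]; decide)
  have hb : Function.Bijective (fun q : P => (⟨io z x q, B.mem q⟩ : V)) :=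
    Function.Injective.bijective_of_nat_card_le (fun p q e => S.io_inj B (congrArg Subtype.val e))
      (by rw [S.cV]; simp)
  obtain ⟨q, e⟩ := hb.2 ⟨v, hv⟩
  exact ⟨q, (congrArg Subtype.val e).symm⟩

/-- `g` acts on `V` by the matrix `m` -/
def Lin (z x g : G) (m : P × P) : Prop := g * z * g⁻¹ = io z x m.1 ∧ g * x * g⁻¹ = io z x m.2

/-- `g` acts on the coset `a V` by the map `p` -/
def Rep (z x a g : G) (p : P → P) : Prop := ∀ q, g * (a * io z x q) * g⁻¹ = a * io z x (p q)

theorem force_eq_rep : True := by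
  have := @Lin.eq_1.{0}; have := @Rep.eq_1.{0}
  trivial

theorem Side.conj_io (S : Side H V) (B : Bas V z x) {g : G} {m : P × P} (h : Lin z x g m) (q : P) :
    g * io z x q * g⁻¹ = io z x (lin m q) := by
  have e : ∀ (m : P × P) (q : P), lin m q = q.1.val • m.1 + q.2.val • m.2 := by decide
  rw [e, S.io_add B, ← S.io_pow B, ← S.io_pow B, ← h.1, ← h.2, conj_pow, conj_pow, io]
  group

theorem Side.exists_lin (S : Side H V) (B : Bas V z x) {g : G} (hg : g ∈ H) :
    ∃ m, det m ≠ 0 ∧ Lin z x g m := by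
  obtain ⟨p, hp⟩ := S.exists_io B (S.norm g hg z B.zm)
  obtain ⟨q, hq⟩ := S.exists_io B (S.norm g hg x B.xm)
  refine ⟨(p, q), fun h => ?_, hp, hq⟩
  have e : ∀ m : P × P, det m = 0 → ∃ r : P, r ≠ 0 ∧ lin m r = 0 := by decide
  obtain ⟨r, r0, hr⟩ := e _ h
  have := S.conj_io B (m := (p, q)) ⟨hp, hq⟩ r
  rw [hr, io_zero, mul_inv_eq_one, mul_eq_left] at this
  exact r0 (S.io_eq_one B this)

theorem Side.mem_of_comm (S : Side H V) (B : Bas V z x) {g : G} (hg : g ∈ H) (h1 : Commute g z)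
    (h2 : Commute g x) : g ∈ V := by
  refine S.cen g hg fun v hv => ?_
  obtain ⟨q, rfl⟩ := S.exists_io B hv
  exact ((h1.pow_right _).mul_right (h2.pow_right _)).eq

theorem Side.lin_surj (S : Side H V) (B : Bas V z x) {m : P × P} (hm : det m ≠ 0) :
    ∃ g ∈ H, Lin z x g m := by
  classical
  by_contra hc
  push Not at hc
  choose φ h1 h2 using fun g : H => S.exists_lin B g.2
  let s : P × P → H := fun m => if h : ∃ g, φ g = m then h.choose else 1
  have hs : ∀ g, φ (s (φ g)) = φ g := fun g => by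
    have h : ∃ g', φ g' = φ g := ⟨g, rfl⟩
    simp only [s, dif_pos h]; exact h.choose_spec
  have hv : ∀ g : H, (((s (φ g) : H) : G)⁻¹ * g : G) ∈ V := fun g => by
    have a := h2 g
    have b := h2 (s (φ g))
    rw [hs] at b
    refine S.mem_of_comm B (H.mul_mem (H.inv_mem (s _).2) g.2) ?_ ?_
    · have := a.1.trans b.1.symm
      show (s (φ g) : G)⁻¹ * g * z = z * ((s (φ g) : G)⁻¹ * g)
      calc _ = (s (φ g) : G)⁻¹ * (g * z * (g : G)⁻¹) * g := by group
        _ = _ := by rw [this]; group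
    · have := a.2.trans b.2.symm
      show (s (φ g) : G)⁻¹ * g * x = x * ((s (φ g) : G)⁻¹ * g)
      calc _ = (s (φ g) : G)⁻¹ * (g * x * (g : G)⁻¹) * g := by group
        _ = _ := by rw [this]; group
  let f : H → {m' : P × P // det m' ≠ 0 ∧ m' ≠ m} × V := fun g =>
    (⟨φ g, h1 g, fun e => hc g g.2 (e ▸ h2 g)⟩, ⟨_, hv g⟩)
  have hf : Function.Injective f := fun g g' e => by
    have e1 : φ g = φ g' := congrArg (fun t => t.1.1) e
    have e2 : (((s (φ g) : H) : G)⁻¹ * g : G) = ((s (φ g') : H) : G)⁻¹ * g' := congrArg (fun t => t.2.1) e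
    rw [e1] at e2
    exact Subtype.ext (mul_left_cancel e2)
  have : Finite V := Nat.finite_of_card_ne_zero (by rw [S.cV]; decide)
  have hc := Nat.card_le_card_of_injective f hf
  have k : ∀ m : P × P, det m ≠ 0 →
      (Finset.univ.filter fun m' : P × P => det m' ≠ 0 ∧ m' ≠ m).card = 47 := by decide +kernel
  rw [Nat.card_prod, S.cH, S.cV, Nat.card_eq_fintype_card, Fintype.card_subtype] at hc
  have k' := k m hm
  have : (Finset.univ.filter fun m' : P × P => det m' ≠ 0 ∧ m' ≠ m).card * 9 ≥ 432 := by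
    convert hc
  omega

/-- `a ∈ H` inverts `V` -/
def Inv (H V : Subgroup G) (a : G) : Prop := a ∈ H ∧ ∀ v ∈ V, a * v * a⁻¹ = v⁻¹

theorem force_eq_inv : True := by
  have := @Inv.eq_1.{0}
  trivial

theorem Side.exists_inv (S : Side H V) (B : Bas V z x) : ∃ a, Inv H V a := by
  obtain ⟨a, ha, h⟩ := S.lin_surj B (m := ((-1, 0), (0, -1))) (by decide)
  refine ⟨a, ha, fun v hv => ?_⟩
  obtain ⟨q, rfl⟩ := S.exists_io B hv
  have e : ∀ q : P, lin ((-1, 0), (0, -1)) q = -q := by decide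
  rw [S.conj_io B h, e, S.io_neg B]

theorem Side.eq_one_of_comm (S : Side H V) (I : Inv H V a) {v : G} (hv : v ∈ V)
    (h : Commute a v) : v = 1 := by
  have h1 := I.2 v hv
  rw [h.eq, mul_inv_cancel_right] at h1
  have h3 := S.cube v hv
  rw [pow_three, ← mul_assoc] at h3
  nth_rewrite 1 [h1] at h3
  rwa [inv_mul_cancel, one_mul] at h3

/-- `[g, a] ∈ V` -/
theorem Side.comm_mem (S : Side H V) (I : Inv H V a) {g : G} (hg : g ∈ H) :
    a⁻¹ * (g * a * g⁻¹) ∈ V := by
  refine S.cen _ (H.mul_mem (H.inv_mem I.1) (H.mul_mem (H.mul_mem hg I.1) (H.inv_mem hg)))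
    fun v hv => ?_
  have h1 := I.2 _ (S.norm g⁻¹ (H.inv_mem hg) v hv)
  have h2 := I.2 v hv
  have h3 : a⁻¹ * v⁻¹ * a = v := by rw [← h2]; group
  calc _ = a⁻¹ * g * (a * (g⁻¹ * v * g⁻¹⁻¹) * a⁻¹) * a * g⁻¹ := by group
    _ = (a⁻¹ * v⁻¹ * a) * (a⁻¹ * (g * a * g⁻¹)) := by rw [h1]; group
    _ = _ := by rw [h3]

theorem Side.sq (S : Side H V) (I : Inv H V a) : a * a = 1 := by
  refine S.eq_one_of_comm I (S.cen _ (H.mul_mem I.1 I.1) fun v hv => ?_)
    ((Commute.refl a).mul_right (Commute.refl a))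
  have h1 := I.2 v hv
  have h2 := I.2 _ (V.inv_mem hv)
  calc a * a * v = a * (a * v * a⁻¹) * a⁻¹ * (a * a) := by group
    _ = v * (a * a) := by rw [h1, h2, inv_inv]

theorem Rep.mul {g h : G} {p r : P → P} (A : Rep z x a g p) (B : Rep z x a h r) :
    Rep z x a (g * h) (fun q => p (r q)) := fun q => by
  rw [← A, ← B]; group

theorem Rep.congr {g : G} {p r : P → P} (A : Rep z x a g p) (h : ∀ q, p q = r q) :
    Rep z x a g r := fun q => by rw [A, h]

theorem Rep.one : Rep z x a (1 : G) (fun q => q) := fun q => by group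

theorem Side.rep_of_lin (S : Side H V) (B : Bas V z x) {g : G} {m : P × P} {t : P}
    (h : Lin z x g m) (e : g * a * g⁻¹ = a * io z x t) : Rep z x a g (aff m t) := fun q => by
  have k : aff m t q = t + lin m q := rfl
  rw [k, S.io_add B, ← S.conj_io B h, ← mul_assoc a, ← e]; group

theorem Side.exists_rep (S : Side H V) (B : Bas V z x) (I : Inv H V a) {g : G} (hg : g ∈ H) :
    ∃ m t, det m ≠ 0 ∧ Rep z x a g (aff m t) := by
  obtain ⟨m, hm, h⟩ := S.exists_lin B hg
  obtain ⟨t, ht⟩ := S.exists_io B (S.comm_mem I hg)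
  exact ⟨m, t, hm, S.rep_of_lin B h (by rw [← ht]; group)⟩

theorem Side.rep_io (S : Side H V) (B : Bas V z x) (I : Inv H V a) (s : P) :
    Rep z x a (io z x s) (fun q => q + s) := fun q => by
  have h1 := I.2 _ (V.inv_mem (B.mem s))
  have e : ∀ q s : P, q + s = -s + q + -s := by decide
  show _ = a * io z x (q + s)
  rw [e q s, S.io_add B, S.io_add B, S.io_neg B]
  calc _ = (io z x s * a) * io z x q * (io z x s)⁻¹ := by group
    _ = (a * (io z x s)⁻¹ * a⁻¹ * a) * io z x q * (io z x s)⁻¹ := by rw [h1, inv_inv]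
    _ = _ := by group

theorem Side.rep_a (S : Side H V) (B : Bas V z x) (I : Inv H V a) :
    Rep z x a a (fun q => -q) := fun q => by
  rw [S.io_neg B, ← I.2 _ (B.mem q)]; group

theorem Side.rep_unique (S : Side H V) (B : Bas V z x) {g : G} {p r : P → P}
    (A : Rep z x a g p) (A' : Rep z x a g r) (q : P) : p q = r q :=
  S.io_inj B (mul_left_cancel ((A q).symm.trans (A' q)))

theorem Side.eq_of_rep (S : Side H V) (B : Bas V z x) (I : Inv H V a) {g h : G} (hg : g ∈ H)
    (hh : h ∈ H) {p r : P → P} (A : Rep z x a g p) (A' : Rep z x a h r) (e : ∀ q, p q = r q) :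
    g = h := by
  have k : ∀ q, Commute (h⁻¹ * g) (a * io z x q) := fun q => by
    have := (A q).trans ((A'.congr fun q => (e q).symm) q).symm
    show _ * _ * _ = _ * (_ * _)
    calc _ = h⁻¹ * (g * (a * io z x q) * g⁻¹) * g := by group
      _ = _ := by rw [this]; group
  have k0 : Commute (h⁻¹ * g) a := by simpa [io_zero] using k 0
  have k1 : ∀ q, Commute (h⁻¹ * g) (io z x q) := fun q => by
    have := k0.inv_right.mul_right (k q)
    rwa [inv_mul_cancel_left] at this
  have m := S.mem_of_comm B (H.mul_mem (H.inv_mem hh) hg) (io_z z x ▸ k1 (1, 0))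
    (io_x z x ▸ k1 (0, 1))
  exact (inv_mul_eq_one.1 (S.eq_one_of_comm I m k0.symm)).symm

theorem Side.exists_of_aff (S : Side H V) (B : Bas V z x) (I : Inv H V a) {m : P × P}
    (hm : det m ≠ 0) (t : P) : ∃ g ∈ H, Rep z x a g (aff m t) := by
  obtain ⟨g, hg, h⟩ := S.lin_surj B hm
  obtain ⟨t', ht⟩ := S.exists_io B (S.comm_mem I hg)
  have r : Rep z x a g (aff m t') := S.rep_of_lin B h (by rw [← ht]; group)
  refine ⟨_, H.mul_mem (S.le (B.mem (t - t'))) hg, ((S.rep_io B I (t - t')).mul r).congr fun q => ?_⟩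
  show t' + lin m q + (t - t') = t + lin m q
  abel

/-- letters in `H` together with their actions -/
structure Sys (H V : Subgroup G) (z x a : G) (g : ℕ → G) (p : ℕ → P → P) (l : List ℕ) : Prop where
  S : Side H V
  B : Bas V z x
  I : Inv H V a
  mem : ∀ i ∈ l, g i ∈ H
  rep : ∀ i ∈ l, Rep z x a (g i) (p i)

variable {g : ℕ → G} {p : ℕ → P → P} {l : List ℕ}

theorem Sys.rep_ev (T : Sys H V z x a g p l) {w : List ℕ} (hw : ∀ i ∈ w, i ∈ l) :
    Rep z x a (ev g w) (evp p w) := by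
  induction w with
  | nil => exact Rep.one
  | cons i w ih =>
    rw [ev_cons]
    exact (ih fun j hj => hw j (List.mem_cons_of_mem _ hj)).mul (T.rep i (hw i List.mem_cons_self))

theorem Sys.ev_mem (T : Sys H V z x a g p l) {w : List ℕ} (hw : ∀ i ∈ w, i ∈ l) : ev g w ∈ H :=
  H18.TC.ev_mem fun i hi => T.mem i (hw i hi)

theorem Sys.eq (T : Sys H V z x a g p l) (w w' : List ℕ)
    (h : (∀ i ∈ w, i ∈ l) ∧ (∀ i ∈ w', i ∈ l) ∧ ∀ q, evp p w q = evp p w' q) :
    ev g w = ev g w' :=
  T.S.eq_of_rep T.B T.I (T.ev_mem h.1) (T.ev_mem h.2.1) (T.rep_ev h.1) (T.rep_ev h.2.1) h.2.2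

theorem Sys.rel (T : Sys H V z x a g p l) {w : List ℕ}
    (h : (∀ i ∈ w, i ∈ l) ∧ ∀ q, evp p w q = q) : ev g w = 1 :=
  T.eq w [] ⟨h.1, fun _ hi => absurd hi List.not_mem_nil, h.2⟩

/-- index of a matrix -/
def code (m : P × P) : ℕ := m.1.1.val + 3 * m.1.2.val + 9 * m.2.1.val + 27 * m.2.2.val

theorem force_eq_code : True := by
  have := @code.eq_1
  trivial

theorem Sys.le (T : Sys H V z x a g p l) {K : Subgroup G} (hK : ∀ i ∈ l, g i ∈ K) (hz : z ∈ K)
    (hx : x ∈ K) (W : List (List ℕ))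
    (h : ∀ m, det m ≠ 0 → (∀ i ∈ W.getD (code m) [], i ∈ l) ∧
      ∀ q, evp p (W.getD (code m) []) q = aff m (evp p (W.getD (code m) []) 0) q) : H ≤ K := by
  intro k hk
  obtain ⟨m, t, hm, r⟩ := T.S.exists_rep T.B T.I hk
  obtain ⟨h1, h2⟩ := h m hm
  generalize W.getD (code m) [] = w at h1 h2
  have := T.S.eq_of_rep T.B T.I hk (H.mul_mem (T.S.le (T.B.mem (t - evp p w 0))) (T.ev_mem h1)) r
    ((T.S.rep_io T.B T.I _).mul (T.rep_ev h1)) fun q => by
      rw [h2 q]
      show t + lin m q = evp p w 0 + lin m q + (t - evp p w 0)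
      abel
  rw [this]
  exact K.mul_mem (K.mul_mem (K.pow_mem hz _) (K.pow_mem hx _))
    (H18.TC.ev_mem fun i hi => hK i (h1 i hi))

end H20.AF
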