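import Mathlib
import Cfsg.Prelude.Def_CaseTheorems
import Cfsg.Agent.Lib.AmF3.Loc

/-!
# Generators for an amalgam of two groups `3² : GL₂(3)`
-/

set_option autoImplicit false

namespace H20.AF

open H18.TC Subgroup Cfsg

variable {G : Type*} [Group G]

theorem side_of [Finite G] {A : Subgroup G} (e : A ⧸ pCore 3 A ≃* GL (Fin 2) (ZMod 3))
    (h : IsMulCommutative (pCore 3 A) ∧ (∀ x ∈ pCore 3 A, x ^ 3 = 1) ∧ Nat.card (pCore 3 A) = 9 ∧
      centralizer ((pCore 3 A : Subgroup A) : Set A) = pCore 3 A) :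
    Side A ((pCore 3 A).map A.subtype) := by
  obtain ⟨h1, h2, h3, h4⟩ := h
  have : Fact (Nat.Prime 3) := ⟨Nat.prime_three⟩
  refine ⟨map_subtype_le _, ?_, ?_, ?_, ?_, ?_, ?_⟩
  · rintro g hg _ ⟨v, hv, rfl⟩
    exact ⟨_, (inferInstance : (pCore 3 A).Normal).conj_mem v hv ⟨g, hg⟩, rfl⟩
  · rintro _ ⟨v, hv, rfl⟩ _ ⟨w, hw, rfl⟩
    exact congrArg (fun t : pCore 3 A => ((t : A) : G)) (h1.is_comm.comm ⟨v, hv⟩ ⟨w, hw⟩)
  · rintro _ ⟨v, hv, rfl⟩
    exact congrArg Subtype.val (h2 v hv)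
  · rw [card_map_of_injective A.subtype_injective, h3]
  · rw [card_eq_card_quotient_mul_card_subgroup (pCore 3 A), h3, Nat.card_congr e.toEquiv,
      Matrix.card_GL_field]
    simp [Fin.prod_univ_two]
  · intro g hg hc
    refine ⟨⟨g, hg⟩, h4 ▸ fun v hv => Subtype.ext (hc v ⟨v, hv, rfl⟩).symm, rfl⟩

theorem Side.le_syl [Finite G] {A C V : Subgroup G} (T : Side A V) (hC : C ≤ A)
    (hi : ¬ 3 ∣ (C.subgroupOf A).index) (S : Sylow 3 C) :
    V ≤ (S : Subgroup C).map C.subtype := by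
  have : Fact (Nat.Prime 3) := ⟨Nat.prime_three⟩
  set Q := (S : Subgroup C).map C.subtype with hQ
  have h1 : IsPGroup 3 (Q.subgroupOf A) := (S.2.map _).comap_subtype
  have h2 : ¬ 3 ∣ (Q.subgroupOf A).index := by
    have e := relIndex_mul_relIndex Q C A (map_subtype_le _) hC
    have e' : Q.subgroupOf C = S := comap_map_eq_self_of_injective C.subtype_injective _
    rw [relIndex, relIndex, relIndex, e'] at e
    rw [← e, Nat.prime_three.dvd_mul]
    exact fun h => h.elim S.not_dvd_index hi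
  have : (V.subgroupOf A).Normal := ⟨fun v hv g => T.norm g g.2 v hv⟩
  have h3 : IsPGroup 3 (V.subgroupOf A) :=
    (IsPGroup.of_card (n := 2) T.cV).comap_subtype
  intro v hv
  exact h3.le_sylow_of_normal (h1.toSylow h2) (x := ⟨v, T.le hv⟩) hv

/-- the amalgam -/
structure Am (A B V W : Subgroup G) : Prop where
  SA : Side A V
  SB : Side B W
  VB : V ≤ B
  WA : W ≤ A
  c3 : Nat.card (V ⊓ W : Subgroup G) = 3
  N : normalizer ((V ⊓ W : Subgroup G) : Set G) ≤ A ⊓ B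

theorem am_of [Finite G] {A B V W : Subgroup G} (SA : Side A V) (SB : Side B W)
    (hA : ¬ 3 ∣ ((A ⊓ B).subgroupOf A).index) (hB : ¬ 3 ∣ ((A ⊓ B).subgroupOf B).index)
    (hcore : ∀ N : Subgroup G, N ≤ A ⊓ B → (∀ a ∈ A, N.map (MulAut.conj a).toMonoidHom = N) →
      (∀ b ∈ B, N.map (MulAut.conj b).toMonoidHom = N) → N = ⊥)
    (S : Sylow 3 ↥(A ⊓ B)) (Z : Subgroup G)
    (hZ : Z = ((S : Subgroup ↥(A ⊓ B)) ⊓
      centralizer ((S : Subgroup ↥(A ⊓ B)) : Set ↥(A ⊓ B))).map (A ⊓ B).subtype)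
    (hNZ : normalizer (Z : Set G) ≤ A ⊓ B) : Am A B V W := by
  have : Fact (Nat.Prime 3) := ⟨Nat.prime_three⟩
  have hV := SA.le_syl inf_le_left hA S
  have hW := SB.le_syl inf_le_right hB S
  have hV' : V ≤ A ⊓ B := hV.trans (map_subtype_le _)
  have hW' : W ≤ A ⊓ B := hW.trans (map_subtype_le _)
  have nV : V ≠ ⊥ := fun e => by have := SA.cV; rw [e, card_bot] at this; omega
  have k : ∀ {H U : Subgroup G}, Side H U → ∀ a ∈ H, U.map (MulAut.conj a).toMonoidHom = U :=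
    fun T a ha => eq_of_le_of_card_ge (by rintro _ ⟨v, hv, rfl⟩; exact T.norm a ha v hv)
      (card_map_of_injective (MulAut.conj a).injective).ge
  have ne : V ≠ W := fun e => nV (hcore V hV' (k SA) (e ▸ k SB))
  have hz : Z ≤ V ⊓ W := by
    rw [hZ]
    rintro _ ⟨c, ⟨-, hc⟩, rfl⟩
    refine ⟨SA.cen _ c.2.1 fun v hv => ?_, SB.cen _ c.2.2 fun v hv => ?_⟩
    · obtain ⟨s, hs, rfl⟩ := hV hv
      exact (congrArg Subtype.val (hc s hs)).symm
    · obtain ⟨s, hs, rfl⟩ := hW hv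
      exact (congrArg Subtype.val (hc s hs)).symm
  have nZ : Z ≠ ⊥ := by
    have : Nontrivial (S : Subgroup ↥(A ⊓ B)) := (nontrivial_iff_ne_bot _).2 fun e =>
      nV (by rwa [e, Subgroup.map_bot, le_bot_iff] at hV)
    have := S.2.center_nontrivial
    obtain ⟨c, hc⟩ := exists_ne (1 : center (S : Subgroup ↥(A ⊓ B)))
    intro e
    have m : (((c : (S : Subgroup ↥(A ⊓ B))) : ↥(A ⊓ B)) : G) ∈ Z := hZ ▸ ⟨_, ⟨c.1.2, fun s hs =>
      congrArg Subtype.val (mem_center_iff.1 c.2 ⟨s, hs⟩)⟩, rfl⟩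
    rw [e, mem_bot] at m
    exact hc (Subtype.ext (Subtype.ext (Subtype.ext m)))
  have c3 : Nat.card (V ⊓ W : Subgroup G) = 3 := by
    have d : Nat.card (V ⊓ W : Subgroup G) ∣ 3 ^ 2 := by
      have := card_dvd_of_le (inf_le_left : V ⊓ W ≤ V)
      rwa [SA.cV] at this
    obtain ⟨i, hi, e⟩ := (Nat.dvd_prime_pow Nat.prime_three).1 d
    interval_cases i
    · exact absurd (le_bot_iff.1 (card_eq_one.1 e ▸ hz)) nZ
    · exact e
    · refine absurd ((eq_of_le_of_card_ge inf_le_left (by rw [e, SA.cV]; rfl)).symm.trans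
        (eq_of_le_of_card_ge inf_le_right (by rw [e, SB.cV]; rfl))) ne
  have eZ : Z = V ⊓ W := eq_of_le_of_card_ge hz (by
    have d := card_dvd_of_le hz
    rw [c3] at d ⊢
    rcases (Nat.dvd_prime Nat.prime_three).1 d with e | e
    · exact absurd (card_eq_one.1 e) nZ
    · exact e.ge)
  exact ⟨SA, SB, hV'.trans inf_le_right, hW'.trans inf_le_left, c3, eZ ▸ hNZ⟩

variable {A B V W : Subgroup G}

theorem Am.symm (M : Am A B V W) : Am B A W V :=
  ⟨M.SB, M.SA, M.WA, M.VB, inf_comm V W ▸ M.c3, inf_comm V W ▸ inf_comm A B ▸ M.N⟩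

theorem Am.zp (M : Am A B V W) {z : G} (hz : z ∈ V ⊓ W) (z1 : z ≠ 1) : zpowers z = V ⊓ W := by
  have : Finite (V ⊓ W : Subgroup G) := Nat.finite_of_card_ne_zero (by rw [M.c3]; decide)
  have h := zpowers_le.2 hz
  refine eq_of_le_of_card_ge h ?_
  have d := card_dvd_of_le h
  rw [M.c3] at d ⊢
  rcases (Nat.dvd_prime Nat.prime_three).1 d with e | e
  · exact absurd (zpowers_eq_bot.1 (card_eq_one.1 e)) z1
  · exact e.ge

theorem Am.exists_z (M : Am A B V W) : ∃ z ∈ V ⊓ W, z ≠ 1 := by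
  by_contra h
  push Not at h
  have := M.c3
  rw [(eq_bot_iff_forall _).2 h, card_bot] at this
  omega

theorem Am.exists_x (M : Am A B V W) : ∃ x ∈ V, x ∉ V ⊓ W := by
  by_contra h
  push Not at h
  have := M.c3
  rw [inf_eq_left.2 fun x hx => (h x hx).2, M.SA.cV] at this
  omega

theorem Am.mem (M : Am A B V W) {g : G} (h : ∀ v ∈ V ⊓ W, g * v * g⁻¹ ∈ V ⊓ W) : g ∈ A ⊓ B := by
  have : Finite (V ⊓ W : Subgroup G) := Nat.finite_of_card_ne_zero (by rw [M.c3]; decide)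
  exact M.N (mem_normalizer_fintype h)

theorem Am.inv_mem (M : Am A B V W) {a : G} (I : Inv A V a) : a ∈ B :=
  (M.mem fun v hv => I.2 v hv.1 ▸ Subgroup.inv_mem _ hv).2

theorem Am.exists_inv (M : Am A B V W) : ∃ a, Inv A V a := by
  obtain ⟨z, hz, z1⟩ := M.exists_z
  obtain ⟨x, hx, xz⟩ := M.exists_x
  exact M.SA.exists_inv ⟨hz.1, hx, z1, M.zp hz z1 ▸ xz⟩

theorem Am.exists_ab (M : Am A B V W) : ∃ a b, Inv A V a ∧ Inv B W b ∧ Commute a b := by
  obtain ⟨a, I⟩ := M.exists_inv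
  obtain ⟨b, J⟩ := M.symm.exists_inv
  have hw := M.SB.comm_mem J (M.inv_mem I)
  generalize hw' : b⁻¹ * (a * b * a⁻¹) = w at hw
  have e : a * b * a⁻¹ = b * w := by rw [← hw']; group
  have a2 := M.SA.sq I
  have e2 : a * w * a⁻¹ = w⁻¹ := by
    rw [eq_inv_iff_mul_eq_one]
    have : a * (b * w) * a⁻¹ = b := by
      rw [← e]
      calc _ = (a * a) * b * (a * a)⁻¹ := by group
        _ = b := by rw [a2]; group
    have k : b * w * (a * w * a⁻¹) = b := by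
      rw [← e]
      calc _ = a * (b * w) * a⁻¹ := by group
        _ = _ := this
    have k' : w * (a * w * a⁻¹) = 1 := by rwa [mul_assoc, mul_eq_left] at k
    exact mul_eq_one_comm.1 k'
  refine ⟨a, b * w⁻¹, I, ⟨B.mul_mem J.1 (B.inv_mem (M.SB.le hw)), fun v hv => ?_⟩, ?_⟩
  · rw [← J.2 v hv]
    calc _ = b * (w⁻¹ * (v * w)) * b⁻¹ := by group
      _ = _ := by rw [M.SB.comm v hv w hw]; group
  · have w3 := M.SB.cube w hw
    show _ = _
    calc a * (b * w⁻¹) = (a * b * a⁻¹) * (a * w * a⁻¹)⁻¹ * a := by group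
      _ = b * w⁻¹ * w ^ 3 * a := by rw [e, e2, pow_three]; group
      _ = _ := by rw [w3, mul_one]

theorem Am.exists_fix (M : Am A B V W) {b : G} (J : Inv B W b) :
    ∃ x ∈ V, x ∉ V ⊓ W ∧ Commute b x := by
  obtain ⟨x, hx, xz⟩ := M.exists_x
  have hb := M.symm.inv_mem J
  have b2 := M.SB.sq J
  have b1 : b⁻¹ = b := inv_eq_of_mul_eq_one_left b2
  have h1 := M.SA.norm b hb x hx
  refine ⟨x * (b * x * b⁻¹), V.mul_mem hx h1, fun h => xz ⟨hx, ?_⟩, ?_⟩
  · have h2 := M.SB.comm_mem J (M.VB hx)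
    have : x = (b⁻¹ * (x * b * x⁻¹)) * (x * (b * x * b⁻¹))⁻¹ := by
      have c := M.SA.comm _ hx _ h1
      have x3 := M.SA.cube x hx
      rw [c]
      nth_rewrite 1 [b1]
      nth_rewrite 2 [← b1]
      have c' : Commute x (b * x * b⁻¹) := M.SA.comm _ hx _ h1
      calc x = (x ^ 3)⁻¹ * x := by rw [x3]; group
        _ = x⁻¹ * x⁻¹ * ((b * x * b⁻¹) * (b * x * b⁻¹)⁻¹) := by group
        _ = (b * x * b⁻¹) * x⁻¹ * x⁻¹ * (b * x * b⁻¹)⁻¹ := by
          rw [← c'.inv_left.eq, mul_assoc x⁻¹, mul_assoc x⁻¹, mul_assoc x⁻¹,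
            ← c'.inv_left.eq]; group
        _ = _ := by group
    rw [this]
    exact W.mul_mem h2 (W.inv_mem h.2)
  · show _ = _
    rw [M.SA.comm _ hx _ h1]
    calc b * (b * x * b⁻¹ * x) = (b * b) * x * (b⁻¹ * x * b⁻¹) * b := by group
      _ = x * (b * x * b⁻¹) * b := by rw [b2, one_mul]; nth_rewrite 1 [b1]; rfl
      _ = _ := by rw [M.SA.comm _ hx _ h1]

/-- the action of the letters on the coset of `a` -/
def pA : ℕ → P → P
  | 0 => aff ((2, 0), (0, 2)) (0, 0)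
  | 1 => aff ((2, 0), (0, 1)) (0, 0)
  | 2 => aff ((0, 1), (1, 0)) (0, 0)
  | 3 => aff ((2, 0), (0, 2)) (2, 0)
  | 4 => aff ((2, 0), (0, 2)) (0, 2)
  | _ => aff ((2, 0), (2, 1)) (0, 0)

/-- the action of the letters on the coset of `b` -/
def pB : ℕ → P → P
  | 0 => aff ((2, 0), (0, 1)) (0, 0)
  | 1 => aff ((2, 0), (0, 2)) (0, 0)
  | 3 => aff ((2, 0), (0, 1)) (2, 0)
  | 4 => aff ((2, 0), (1, 1)) (0, 0)
  | 5 => aff ((2, 0), (0, 2)) (0, 2)
  | _ => aff ((0, 1), (1, 0)) (0, 0)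

theorem force_eq_p : True := by
  have := @pA.eq_1; have := @pB.eq_1; have := @pA.eq_def; have := @pB.eq_def
  trivial

theorem Side.rep_fix {H : Subgroup G} {z x a g : G} (S : Side H V) (T : Bas V z x) {m : P × P}
    (h : Commute g a) (h1 : g * z * g⁻¹ = io z x m.1) (h2 : g * x * g⁻¹ = io z x m.2) :
    Rep z x a g (aff m 0) :=
  S.rep_of_lin T ⟨h1, h2⟩ (by rw [io_zero, h.eq]; group)

theorem Am.exists_sys (M : Am A B V W) : ∃ (z x y a b : G) (g : ℕ → G),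
    Sys A V z x a g pA [0, 1, 2, 3, 4, 5] ∧ Sys B W z y b g pB [0, 1, 3, 4, 5, 6] ∧
      (∀ i, 7 ≤ i → g i = 1) ∧ ∀ c, Commute c z → c ∈ A := by
  obtain ⟨a, b, I, J, ab⟩ := M.exists_ab
  obtain ⟨x, hx, xz, bx⟩ := M.exists_fix J
  obtain ⟨y, hy, yz, ay⟩ := M.symm.exists_fix I
  rw [inf_comm] at yz
  have ha := M.inv_mem I
  have hb := M.symm.inv_mem J
  have hz : y * x * y⁻¹ * x⁻¹ ∈ V ⊓ W :=
    ⟨V.mul_mem (M.SA.norm y (M.WA hy) x hx) (V.inv_mem hx), by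
      rw [mul_assoc, mul_assoc, ← mul_assoc x]
      exact W.mul_mem hy (M.SB.norm x (M.VB hx) _ (W.inv_mem hy))⟩
  generalize ez : y * x * y⁻¹ * x⁻¹ = z at hz
  have z1 : z ≠ 1 := fun e => by
    obtain ⟨z', hz', z1'⟩ := M.exists_z
    refine yz ⟨M.SA.mem_of_comm ⟨hz'.1, hx, z1', M.zp hz' z1' ▸ xz⟩ (M.WA hy)
      (M.SB.comm _ hy _ hz'.2) ?_, hy⟩
    exact commutatorElement_eq_one_iff_commute.1 (ez.trans e)
  have BA : Bas V z x := ⟨hz.1, hx, z1, M.zp hz z1 ▸ xz⟩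
  have BB : Bas W z y := ⟨hz.2, hy, z1, M.zp hz z1 ▸ yz⟩
  obtain ⟨u, hu, ru⟩ := M.SA.exists_of_aff BA I (m := ((0, 1), (1, 0))) (by decide) (0, 0)
  obtain ⟨v, hv, rv⟩ := M.SB.exists_of_aff BB J (m := ((0, 1), (1, 0))) (by decide) (0, 0)
  have zA : z⁻¹ = io z x (2, 0) := by
    rw [show ((2, 0) : P) = -(1, 0) by decide, M.SA.io_neg BA, io_z]
  have zB : z⁻¹ = io z y (2, 0) := by
    rw [show ((2, 0) : P) = -(1, 0) by decide, M.SB.io_neg BB, io_z]
  have rb : Rep z x a b (aff ((2, 0), (0, 1)) 0) := M.SA.rep_fix BA ab.symm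
    ((J.2 z hz.2).trans zA) (by rw [bx.eq, mul_inv_cancel_right, io_x])
  have ra : Rep z y b a (aff ((2, 0), (0, 1)) 0) := M.SB.rep_fix BB ab
    ((I.2 z hz.1).trans zB) (by rw [ay.eq, mul_inv_cancel_right, io_x])
  have ry : Rep z x a y (aff ((1, 0), (1, 1)) 0) := M.SA.rep_fix BA ay.symm
    (by rw [M.SB.comm _ hy _ hz.2, mul_inv_cancel_right, io_z])
    (by rw [show ((1, 1) : P) = (1, 0) + (0, 1) by decide, M.SA.io_add BA, io_z, io_x, ← ez]; group)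
  have rx : Rep z y b x (aff ((1, 0), (2, 1)) 0) := M.SB.rep_fix BB bx.symm
    (by rw [M.SA.comm _ hx _ hz.1, mul_inv_cancel_right, io_z])
    (by rw [show ((2, 1) : P) = (2, 0) + (0, 1) by decide, M.SB.io_add BB, ← zB, io_x, ← ez]; group)
  have r0 := M.SA.rep_a BA I
  have r1 := M.SB.rep_a BB J
  have r2 := M.SA.rep_io BA I (1, 0)
  have r3 := M.SA.rep_io BA I (0, 1)
  have r4 := M.SB.rep_io BB J (1, 0)
  have r5 := M.SB.rep_io BB J (0, 1)
  rw [io_z] at r2 r4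
  rw [io_x] at r3 r5
  refine ⟨z, x, y, a, b, fun i => [a, b, u, a * z, a * x, b * y, v].getD i 1,
    ⟨M.SA, BA, I, ?_, ?_⟩, ⟨M.SB, BB, J, ?_, ?_⟩, fun i hi => List.getD_eq_default _ _ hi,
    fun c hc => (M.mem fun w hw => ?_).1⟩
  · simp only [List.forall_mem_cons]
    exact ⟨I.1, hb, hu, A.mul_mem I.1 (M.SA.le hz.1), A.mul_mem I.1 (M.SA.le hx),
      A.mul_mem hb (M.WA hy), fun _ h => absurd h List.not_mem_nil⟩
  · simp only [List.forall_mem_cons]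
    exact ⟨r0.congr (by decide), rb, ru, (r0.mul r2).congr (by decide),
      (r0.mul r3).congr (by decide), (rb.mul ry).congr (by decide),
      fun _ h => absurd h List.not_mem_nil⟩
  · simp only [List.forall_mem_cons]
    exact ⟨ha, J.1, B.mul_mem ha (M.SB.le hz.2), B.mul_mem ha (M.VB hx),
      B.mul_mem J.1 (M.SB.le hy), hv, fun _ h => absurd h List.not_mem_nil⟩
  · simp only [List.forall_mem_cons]
    exact ⟨ra, r1.congr (by decide), (ra.mul r4).congr (by decide),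
      (ra.mul rx).congr (by decide), (r1.mul r5).congr (by decide), rv,
      fun _ h => absurd h List.not_mem_nil⟩
  · rw [← M.zp hz z1] at hw ⊢
    obtain ⟨n, rfl⟩ := hw
    rw [(hc.zpow_right n).eq, mul_inv_cancel_right]
    exact ⟨n, rfl⟩

end H20.AF
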